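import Mathlib
import Cfsg.Prelude.Def_Blocks

/-!
# Piece statements for S4581 (real McKay for `p = 2` in solvable groups)

`RO G` : the real-valued irreducible characters of odd degree of `G`.
`ROver U H hUH τ` : those of the subgroup `H ≥ U` lying over the real linear character
`τ : ↥U →* ℤˣ` of the normal subgroup `U`.
Each piece `X` below is proved elsewhere as `theorem main : RMStmt.X.{u}`.
-/

set_option autoImplicit false

namespace Cfsg.Agent.Lib.Helper81.RMStmt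

open Cfsg

universe u

/-- the real-valued irreducible characters of odd degree -/
abbrev RO (G : Type u) [Group G] : Type u :=
  {χ : IrrCharacter G // (∀ g : G, ((χ : G → ℂ) g).im = 0) ∧ Odd (charDegree (χ : G → ℂ))}

/-- `χ` (a function on the subgroup `H ≥ U`) lies over the real linear character `τ` of `U`:
`∑_{u ∈ U} χ(u) τ(u) ≠ 0` -/
def Over {G : Type u} [Group G] (U H : Subgroup G) (hUH : U ≤ H) (τ : ↥U →* ℤˣ)
    (χ : ↥H → ℂ) : Prop :=
  ∑ᶠ u : ↥U, χ (Subgroup.inclusion hUH u) * (((τ u : ℤˣ) : ℤ) : ℂ) ≠ 0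

/-- the real-valued irreducible characters of odd degree of `H` lying over `τ` -/
abbrev ROver {G : Type u} [Group G] (U H : Subgroup G) (hUH : U ≤ H) (τ : ↥U →* ℤˣ) : Type u :=
  {χ : IrrCharacter ↥H // (∀ h : ↥H, ((χ : ↥H → ℂ) h).im = 0) ∧
    Odd (charDegree (χ : ↥H → ℂ)) ∧ Over U H hUH τ (χ : ↥H → ℂ)}

/-- `τ' = τ ^ n`, i.e. `τ' (n u n⁻¹) = τ u` for all `u ∈ U` -/
def ConjRel {G : Type u} [Group G] (U : Subgroup G) [hU : U.Normal] (n : G)
    (τ τ' : ↥U →* ℤˣ) : Prop :=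
  ∀ u : ↥U, τ' ⟨n * (u : G) * n⁻¹, hU.conj_mem (u : G) u.2 n⟩ = τ u

theorem conjRel_one {G : Type u} [Group G] (U : Subgroup G) [hU : U.Normal] (τ : ↥U →* ℤˣ) :
    ConjRel U 1 τ τ := by
  intro u
  congr 1
  apply Subtype.ext
  simp

theorem conjRel_mul {G : Type u} [Group G] (U : Subgroup G) [hU : U.Normal] {n m : G}
    {τ τ' τ'' : ↥U →* ℤˣ} (h1 : ConjRel U n τ τ') (h2 : ConjRel U m τ' τ'') :
    ConjRel U (m * n) τ τ'' := by
  intro u
  rw [← h1 u, ← h2 ⟨n * (u : G) * n⁻¹, hU.conj_mem (u : G) u.2 n⟩]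
  congr 1
  apply Subtype.ext
  simp [mul_assoc]

theorem conjRel_inv {G : Type u} [Group G] (U : Subgroup G) [hU : U.Normal] {n : G}
    {τ τ' : ↥U →* ℤˣ} (h1 : ConjRel U n τ τ') : ConjRel U n⁻¹ τ' τ := by
  intro u
  rw [← h1 ⟨n⁻¹ * (u : G) * n⁻¹⁻¹, hU.conj_mem (u : G) u.2 n⁻¹⟩]
  congr 1
  apply Subtype.ext
  simp [mul_assoc]

/-- the stabilizer of `τ` -/
def stabHom {G : Type u} [Group G] (U : Subgroup G) [hU : U.Normal] (τ : ↥U →* ℤˣ) :
    Subgroup G where
  carrier := {g | ConjRel U g τ τ}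
  mul_mem' := fun ha hb => conjRel_mul U hb ha
  one_mem' := conjRel_one U τ
  inv_mem' := fun ha => conjRel_inv U ha

theorem mem_stabHom {G : Type u} [Group G] (U : Subgroup G) [hU : U.Normal] (τ : ↥U →* ℤˣ)
    (g : G) : g ∈ stabHom U τ ↔ ConjRel U g τ τ := Iff.rfl

theorem le_stabHom {G : Type u} [Group G] (U : Subgroup G) [hU : U.Normal] (τ : ↥U →* ℤˣ) :
    U ≤ stabHom U τ := by
  intro g hg u
  have h : (⟨g * (u : G) * g⁻¹, hU.conj_mem (u : G) u.2 g⟩ : ↥U) = ⟨g, hg⟩ * u * ⟨g, hg⟩⁻¹ := by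
    apply Subtype.ext
    simp
  rw [h, map_mul, map_mul, map_inv, mul_comm, inv_mul_cancel_left]

/-! ### the pieces -/

/-- [ISO] the count is an isomorphism invariant -/
def ISO : Prop := ∀ (G G' : Type u) [Group G] [Group G'] [Finite G], (G ≃* G') →
  Nat.card (RO G) = Nat.card (RO G')

/-- [ODDKER] real odd-degree characters are trivial on normal subgroups of odd order
(stated for a subgroup `H` of `G` and the normal subgroup `U ∩ H` of `H`) -/
def ODDKER : Prop := ∀ (G : Type u) [Group G] [Finite G] (U : Subgroup G) [U.Normal]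
  (H : Subgroup G), Odd (Nat.card ↥U) →
  Nat.card (RO ↥H) = Nat.card (RO (↥H ⧸ U.subgroupOf H))

/-- [NQUOT] the normalizer of a Sylow subgroup in a quotient (relative to a subgroup `T`) -/
def NQUOT : Prop := ∀ (G : Type u) [Group G] [Finite G] (U : Subgroup G) [U.Normal]
  (P : Sylow 2 G) (T M : Subgroup G), U ≤ T → (P : Subgroup G) ≤ T →
  (∀ g : G, g ∈ M ↔ g ∈ Subgroup.normalizer ((P : Subgroup G) : Set G) ∧ g ∈ T) →
  ∃ Q : Sylow 2 (↥T ⧸ U.subgroupOf T),
    Nonempty ((↥M ⧸ U.subgroupOf M) ≃*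
      ↥(Subgroup.normalizer ((Q : Subgroup (↥T ⧸ U.subgroupOf T)) : Set (↥T ⧸ U.subgroupOf T))))

/-- [TRIVH] characters over the trivial character of `U` are the characters of the quotient -/
def TRIVH : Prop := ∀ (G : Type u) [Group G] [Finite G] (U : Subgroup G) [U.Normal]
  (H : Subgroup G) (hUH : U ≤ H),
  Nat.card (ROver U H hUH 1) = Nat.card (RO (↥H ⧸ U.subgroupOf H))

/-- [CLIF] the Clifford correspondence for real odd-degree characters over `τ` -/
def CLIF : Prop := ∀ (G : Type u) [Group G] [Finite G] (U : Subgroup G) [U.Normal]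
  (τ : ↥U →* ℤˣ) (H H' : Subgroup G) (hUH' : U ≤ H') (hH'H : H' ≤ H),
  (∀ h ∈ H, h ∈ H' ↔ ConjRel U h τ τ) → Odd (H'.relIndex H) →
  Nat.card (ROver U H (hUH'.trans hH'H) τ) = Nat.card (ROver U H' hUH' τ)

/-- [ORB] the `P`-invariant linear constituents of the restriction to `U` of an odd-degree
irreducible character of `H ≥ P` form one orbit under `N_H(P)` -/
def ORB : Prop := ∀ (G : Type u) [Group G] [Finite G] (U : Subgroup G) [U.Normal],
  (∀ u ∈ U, u * u = 1) → ∀ (P : Sylow 2 G) (H : Subgroup G) (hUH : U ≤ H),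
  (P : Subgroup G) ≤ H → ∀ χ : IrrCharacter ↥H, Odd (charDegree (χ : ↥H → ℂ)) →
    (∃ τ : ↥U →* ℤˣ, (∀ x ∈ (P : Subgroup G), ConjRel U x τ τ) ∧
      Over U H hUH τ (χ : ↥H → ℂ)) ∧
    (∀ τ τ' : ↥U →* ℤˣ, (∀ x ∈ (P : Subgroup G), ConjRel U x τ τ) →
      (∀ x ∈ (P : Subgroup G), ConjRel U x τ' τ') →
      Over U H hUH τ (χ : ↥H → ℂ) → Over U H hUH τ' (χ : ↥H → ℂ) →
      ∃ n ∈ H, n ∈ Subgroup.normalizer ((P : Subgroup G) : Set G) ∧ ConjRel U n τ τ') ∧
    (∀ (τ τ' : ↥U →* ℤˣ) (n : G), n ∈ H → ConjRel U n τ τ' →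
      Over U H hUH τ (χ : ↥H → ℂ) → Over U H hUH τ' (χ : ↥H → ℂ))

/-- [WCOUNT] counting through fibres which are equivalence classes (pure combinatorics) -/
def WCOUNT : Prop := ∀ (X X' I : Type u) [Finite X] [Finite X'] [Finite I] (r : I → I → Prop)
  (R : X → I → Prop) (R' : X' → I → Prop), Equivalence r →
  (∀ x, ∃ i, R x i) → (∀ x i j, R x i → (R x j ↔ r i j)) →
  (∀ x, ∃ i, R' x i) → (∀ x i j, R' x i → (R' x j ↔ r i j)) →
  (∀ i, Nat.card {x // R x i} = Nat.card {x // R' x i}) →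
  Nat.card X = Nat.card X'

/-- [VAN] no real odd-degree character lies over an invariant `τ` which does not extend to a
real linear character of the Sylow `2`-subgroup -/
def VAN : Prop := ∀ (G : Type u) [Group G] [Finite G] (U : Subgroup G) [U.Normal]
  (P : Sylow 2 G) (H : Subgroup G) (hUH : U ≤ H), (P : Subgroup G) ≤ H →
  ∀ (hUP : U ≤ (P : Subgroup G)) (τ : ↥U →* ℤˣ), (∀ h ∈ H, ConjRel U h τ τ) →
  (¬ ∃ ν : ↥(P : Subgroup G) →* ℤˣ, ∀ u : ↥U, ν (Subgroup.inclusion hUP u) = τ u) →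
  IsEmpty (ROver U H hUH τ)

/-- [EXT] an invariant `τ` which extends to the Sylow `2`-subgroup extends to `H` (transfer) -/
def EXT : Prop := ∀ (G : Type u) [Group G] [Finite G] (U : Subgroup G) [U.Normal]
  (P : Sylow 2 G) (H : Subgroup G) (hUH : U ≤ H), (P : Subgroup G) ≤ H →
  ∀ (hUP : U ≤ (P : Subgroup G)) (τ : ↥U →* ℤˣ), (∀ h ∈ H, ConjRel U h τ τ) →
  (∃ ν : ↥(P : Subgroup G) →* ℤˣ, ∀ u : ↥U, ν (Subgroup.inclusion hUP u) = τ u) →
  ∃ lam : ↥H →* ℤˣ, ∀ u : ↥U, lam (Subgroup.inclusion hUH u) = τ u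

/-- [TWIST] multiplication with a real linear character extending `τ` -/
def TWIST : Prop := ∀ (G : Type u) [Group G] [Finite G] (U : Subgroup G) [U.Normal]
  (H : Subgroup G) (hUH : U ≤ H) (τ : ↥U →* ℤˣ) (lam : ↥H →* ℤˣ),
  (∀ u : ↥U, lam (Subgroup.inclusion hUH u) = τ u) →
  Nat.card (ROver U H hUH τ) = Nat.card (ROver U H hUH 1)

/-- [MINN] a nontrivial solvable group has a nontrivial normal subgroup which has odd order or
exponent two -/
def MINN : Prop := ∀ (G : Type u) [Group G] [Finite G] [Group.IsSolvable G] [Nontrivial G],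
  ∃ U : Subgroup G, U.Normal ∧ U ≠ ⊥ ∧ (Odd (Nat.card ↥U) ∨ ∀ u ∈ U, u * u = 1)

/-- [MCK2] the McKay count for `p = 2` in solvable groups (from the landed S4807) -/
def MCK2 : Prop := ∀ (G : Type u) [Group G] [Finite G] [Group.IsSolvable G] (P : Sylow 2 G),
  Nat.card {χ : IrrCharacter G // Odd (charDegree (χ : G → ℂ))} =
    Nat.card {ψ : IrrCharacter ↥(Subgroup.normalizer ((P : Subgroup G) : Set G)) //
      Odd (charDegree (ψ : ↥(Subgroup.normalizer ((P : Subgroup G) : Set G)) → ℂ))}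

/-- [NSYLA] if all odd-degree characters of `N_G(P)` are real then `P' = Φ(P)` and
`N_G(P) = P` -/
def NSYLA : Prop := ∀ (G : Type u) [Group G] [Finite G] (P : Sylow 2 G),
  (∀ ψ : IrrCharacter ↥(Subgroup.normalizer ((P : Subgroup G) : Set G)),
    Odd (charDegree (ψ : ↥(Subgroup.normalizer ((P : Subgroup G) : Set G)) → ℂ)) →
    ∀ g, ((ψ : ↥(Subgroup.normalizer ((P : Subgroup G) : Set G)) → ℂ) g).im = 0) →
  commutator ↥(P : Subgroup G) = frattini ↥(P : Subgroup G) ∧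
    Subgroup.normalizer ((P : Subgroup G) : Set G) = (P : Subgroup G)

/-- [NSYLB] the converse -/
def NSYLB : Prop := ∀ (G : Type u) [Group G] [Finite G] (P : Sylow 2 G),
  commutator ↥(P : Subgroup G) = frattini ↥(P : Subgroup G) →
  Subgroup.normalizer ((P : Subgroup G) : Set G) = (P : Subgroup G) →
  ∀ ψ : IrrCharacter ↥(Subgroup.normalizer ((P : Subgroup G) : Set G)),
    Odd (charDegree (ψ : ↥(Subgroup.normalizer ((P : Subgroup G) : Set G)) → ℂ)) →
    ∀ g, ((ψ : ↥(Subgroup.normalizer ((P : Subgroup G) : Set G)) → ℂ) g).im = 0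

end Cfsg.Agent.Lib.Helper81.RMStmt
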