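import Mathlib
import Cfsg.Agent.Lib.Helper12.AOStmt

/-! # S4068 piece CENT -/

set_option autoImplicit false

namespace Cfsg.Agent.Lib.Helper81.AOCENT

open Cfsg.Agent.Lib.Helper12.AOStmt

universe u

theorem main : Cfsg.Agent.Lib.Helper12.AOStmt.Cent.{u} := by
  intro G _ _ hE x hx y hy hy1
  have hp := hE x hx
  have hq := hE y hy1
  by_contra hne
  have hcop : Nat.Coprime (orderOf x) (orderOf y) :=
    (Nat.coprime_primes hp hq).2 (fun h => hne h.symm)
  have hcomm : Commute x y := by
    have := (Subgroup.mem_centralizer_iff.1 hy) x (Set.mem_singleton x)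
    exact this
  have hord := hcomm.orderOf_mul_eq_mul_orderOf_of_coprime hcop
  by_cases h1 : x * y = 1
  · rw [h1, orderOf_one] at hord
    have h2 := hp.two_le
    have h3 := hq.two_le
    nlinarith
  · have hpr := hE (x * y) h1
    rw [hord] at hpr
    exact Nat.not_prime_mul hp.one_lt.ne' hq.one_lt.ne' hpr

end Cfsg.Agent.Lib.Helper81.AOCENT
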