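import Mathlib
import Cfsg.Agent.Lib.Helper12.AOStmt

/-! # S4068 piece INV -/

set_option autoImplicit false

namespace Cfsg.Agent.Lib.Helper81.AOINV

open Cfsg.Agent.Lib.Helper12.AOStmt

universe u

theorem main : Cfsg.Agent.Lib.Helper12.AOStmt.Inv.{u} := by
  intro G _ _ hcent t ht
  have ht1 : t ≠ 1 := by
    intro h
    rw [h, orderOf_one] at ht
    omega
  have hexp : ∀ c ∈ Subgroup.centralizer ({t} : Set G), c ^ 2 = 1 := by
    intro c hc
    by_cases hc1 : c = 1
    · rw [hc1, one_pow]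
    · have h := hcent t ht1 c hc hc1
      rw [ht] at h
      rw [← h]
      exact pow_orderOf_eq_one c
  refine ⟨⟨⟨fun a b => ?_⟩⟩, hexp⟩
  apply Subtype.ext
  have ha := hexp a.1 a.2
  have hb := hexp b.1 b.2
  have hab := hexp (a.1 * b.1) (Subgroup.mul_mem _ a.2 b.2)
  show (a : G) * (b : G) = (b : G) * (a : G)
  have e1 : (a : G)⁻¹ = a := by
    rw [inv_eq_iff_mul_eq_one, ← sq]
    exact ha
  have e2 : (b : G)⁻¹ = b := by
    rw [inv_eq_iff_mul_eq_one, ← sq]
    exact hb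
  have e3 : ((a : G) * (b : G))⁻¹ = (a : G) * (b : G) := by
    rw [inv_eq_iff_mul_eq_one, ← sq]
    exact hab
  rw [← e3, mul_inv_rev, e1, e2]

end Cfsg.Agent.Lib.Helper81.AOINV
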