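import Mathlib
import Cfsg.Agent.Lib.Helper12.AOStmt

/-! # S4068 pieces ORB1 and ORB2 (common part) -/

set_option autoImplicit false
set_option linter.style.haveILetI false
set_option linter.unusedSectionVars false

namespace Cfsg.Agent.Lib.Helper81.AOORB1

open Cfsg.Agent.Lib.Helper12.AOStmt

universe u

variable {G : Type u} [Group G]

/-- the order of the elements of an orbit of `MulAut G` -/
noncomputable def ord : MulAction.orbitRel.Quotient (MulAut G) G → ℕ :=
  Quotient.lift (fun x : G => orderOf x) (by
    intro a b hab
    have hab' : a ∈ MulAction.orbit (MulAut G) b := hab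
    obtain ⟨φ, rfl⟩ := hab'
    show orderOf (φ • b) = orderOf b
    rw [MulAut.smul_def]
    exact MulEquiv.orderOf_eq φ b)

theorem ord_mk (x : G) :
    ord (Quotient.mk (MulAction.orbitRel (MulAut G) G) x) = orderOf x := rfl

theorem exists_order [Finite G] (n : ℕ) (hn : n ∈ insert 1 (Nat.card G).primeFactors) :
    ∃ x : G, orderOf x = n := by
  rw [Finset.mem_insert] at hn
  rcases hn with rfl | hn
  · exact ⟨1, orderOf_one⟩
  · have hp := Nat.prime_of_mem_primeFactors hn
    have hd := Nat.dvd_of_mem_primeFactors hn
    haveI := Fact.mk hp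
    exact exists_prime_orderOf_dvd_card' n hd

theorem card_insert [Finite G] :
    (insert 1 (Nat.card G).primeFactors).card = (Nat.card G).primeFactors.card + 1 := by
  rw [Finset.card_insert_of_notMem]
  intro h
  exact Nat.not_prime_one (Nat.prime_of_mem_primeFactors h)

theorem subset_image [Finite G] [Fintype (MulAction.orbitRel.Quotient (MulAut G) G)] :
    insert 1 (Nat.card G).primeFactors ⊆
      Finset.univ.image (ord : MulAction.orbitRel.Quotient (MulAut G) G → ℕ) := by
  intro n hn
  obtain ⟨x, hx⟩ := exists_order n hn
  rw [Finset.mem_image]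
  exact ⟨Quotient.mk _ x, Finset.mem_univ _, by rw [ord_mk, hx]⟩

theorem main : Cfsg.Agent.Lib.Helper12.AOStmt.Orb1.{u} := by
  intro G _ _
  classical
  haveI : Fintype (MulAction.orbitRel.Quotient (MulAut G) G) := Fintype.ofFinite _
  have hQ : Nat.card (MulAction.orbitRel.Quotient (MulAut G) G) =
      (Finset.univ : Finset (MulAction.orbitRel.Quotient (MulAut G) G)).card := by
    rw [Nat.card_eq_fintype_card, Finset.card_univ]
  rw [← card_insert, hQ]
  exact (Finset.card_le_card subset_image).trans Finset.card_image_le

end Cfsg.Agent.Lib.Helper81.AOORB1
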