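import Mathlib
import Cfsg.Agent.Lib.Helper12.AOStmt
import Cfsg.Agent.Lib.Helper81.AOORB1

/-! # S4068 piece ORB2 -/

set_option autoImplicit false
set_option linter.style.haveILetI false

namespace Cfsg.Agent.Lib.Helper81.AOORB2

open Cfsg.Agent.Lib.Helper12.AOStmt Cfsg.Agent.Lib.Helper81.AOORB1

universe u

theorem main : Cfsg.Agent.Lib.Helper12.AOStmt.Orb2.{u} := by
  intro G _ _ h x hx
  classical
  haveI : Fintype (MulAction.orbitRel.Quotient (MulAut G) G) := Fintype.ofFinite _
  have hle : (Finset.univ.image (ord : MulAction.orbitRel.Quotient (MulAut G) G → ℕ)).card ≤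
      (insert 1 (Nat.card G).primeFactors).card := by
    have hQ : Nat.card (MulAction.orbitRel.Quotient (MulAut G) G) =
        (Finset.univ : Finset (MulAction.orbitRel.Quotient (MulAut G) G)).card := by
      rw [Nat.card_eq_fintype_card, Finset.card_univ]
    rw [card_insert, h, hQ]
    exact Finset.card_image_le
  have heq := Finset.eq_of_subset_of_card_le subset_image hle
  have hmem : orderOf x ∈ Finset.univ.image
      (ord : MulAction.orbitRel.Quotient (MulAut G) G → ℕ) := by
    rw [Finset.mem_image]
    exact ⟨Quotient.mk _ x, Finset.mem_univ _, ord_mk x⟩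
  rw [← heq, Finset.mem_insert] at hmem
  rcases hmem with h1 | h1
  · exact absurd (orderOf_eq_one_iff.1 h1) hx
  · exact Nat.prime_of_mem_primeFactors h1

end Cfsg.Agent.Lib.Helper81.AOORB2
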