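import Cfsg.Agent.Lib.Helper76.BrRBStmt
import Cfsg.Agent.Lib.Helper21.BrL3
import Cfsg.Agent.Lib.Helper67.BrL24
import Cfsg.Agent.Lib.CT.LinChar
import Cfsg.Agent.Lib.CT.Ops
import Cfsg.Agent.Lib.CT.Wedderburn

/-!
# S4504 piece ORB: `|N : C| = e` and `ξ|_C` is a sum of `e` linear characters, conjugates of one
of them
-/

set_option autoImplicit false
set_option linter.style.haveILetI false
set_option linter.unusedSectionVars false

namespace Cfsg.Agent.Lib.Helper81.BrRBORB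

open Cfsg Cfsg.Agent.Lib.CT Cfsg.Agent.Lib.CT.Wedderburn Cfsg.Agent.Lib.CT.Ops
open Cfsg.Agent.Lib.Helper76.BrRB
open scoped ComplexConjugate

universe u

theorem main (hT1B : T1B.{u}) (hT1T : T1T.{u}) (hNCE : NCE.{u}) : ORB.{u} := by
  intro L _ _ p _ c
  classical
  have hp : p.Prime := Fact.out
  letI : Fintype ↥(Subgroup.centralizer ((c.P : Subgroup L) : Set L)) := Fintype.ofFinite _
  have hξc : IsCharacter L c.ξ := isCharacter_of_irr c.hξ
  have hP : Nat.card c.P = p := c.hP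
  have hdegle : 2 * charDegree c.ξ + 1 ≤ p := le_of_eq c.hdeg
  -- `P` is not in the kernel
  have hnotconst : ¬ ∀ x : L, x ∈ (c.P : Subgroup L) → c.ξ x = c.ξ 1 := by
    intro h
    have h1 : ∀ x ∈ (c.P : Subgroup L), x = 1 := fun x hx => c.hfaith x (h x hx)
    have h2 : (c.P : Subgroup L) = ⊥ := (Subgroup.eq_bot_iff_forall _).2 h1
    apply c.hnn
    rw [h2]
    exact Subgroup.normal_bot
  -- `|N : C| = e`
  have hrel : (Subgroup.centralizer ((c.P : Subgroup L) : Set L)).relIndex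
      (Subgroup.normalizer ((c.P : Subgroup L) : Set L)) = charDegree c.ξ := by
    rcases hT1T p c.P hP ⟨c.ξ, c.hξ⟩ hdegle with h1 | h2
    · exact absurd h1 hnotconst
    · exact hNCE p c h2
  refine ⟨hrel, ?_⟩
  rcases hT1B p c.P hP ⟨c.ξ, c.hξ⟩ hdegle with h1 | ⟨φ₀, ψ₀, hψ₀, hφ₀, hm, hdegle'⟩
  · exact absurd h1 hnotconst
  obtain ⟨S0, hScard, hS⟩ :=
    Cfsg.Agent.Lib.Helper21.BrL3.exists_orbit p c.P hP c.ξ hξc φ₀ ψ₀ hψ₀ hφ₀ hm
  have hres : IsCharacter ↥(Subgroup.centralizer ((c.P : Subgroup L) : Set L))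
      (fun k : ↥(Subgroup.centralizer ((c.P : Subgroup L) : Set L)) => c.ξ (k : L)) :=
    isCharacter_restrict _ hξc
  have hsumdeg : ∑ φ ∈ S0,
      charDegree (φ : ↥(Subgroup.centralizer ((c.P : Subgroup L) : Set L)) → ℂ) =
      (Subgroup.centralizer ((c.P : Subgroup L) : Set L)).relIndex
        (Subgroup.normalizer ((c.P : Subgroup L) : Set L)) *
        charDegree (φ₀ : ↥(Subgroup.centralizer ((c.P : Subgroup L) : Set L)) → ℂ) := by
    rw [Finset.sum_congr rfl (fun φ hφ => (hS φ hφ).2.1), Finset.sum_const, smul_eq_mul,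
      hScard]
  have hdeg' : charDegree
      (fun k : ↥(Subgroup.centralizer ((c.P : Subgroup L) : Set L)) => c.ξ (k : L)) ≤
      ∑ φ ∈ S0, charDegree (φ : ↥(Subgroup.centralizer ((c.P : Subgroup L) : Set L)) → ℂ) := by
    rw [hsumdeg]
    exact hdegle'
  obtain ⟨hsum, -⟩ := Cfsg.Agent.Lib.Helper67.BrL24.eq_sum_of_degree_le _ hres S0
    (fun φ hφ => (hS φ hφ).1) hdeg'
  have hφ₀pos : 0 < charDegree
      (φ₀ : ↥(Subgroup.centralizer ((c.P : Subgroup L) : Set L)) → ℂ) :=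
    irr_charDegree_pos φ₀.2
  have hdegeq : charDegree c.ξ = ∑ φ ∈ S0,
      charDegree (φ : ↥(Subgroup.centralizer ((c.P : Subgroup L) : Set L)) → ℂ) := by
    have h1 := hsum 1
    have h2 : ((charDegree c.ξ : ℕ) : ℂ) = ((∑ φ ∈ S0,
        charDegree (φ : ↥(Subgroup.centralizer ((c.P : Subgroup L) : Set L)) → ℂ) : ℕ) : ℂ) := by
      rw [char_natCast_charDegree hξc, Nat.cast_sum]
      rw [show c.ξ 1 = c.ξ
        ((1 : ↥(Subgroup.centralizer ((c.P : Subgroup L) : Set L))) : L) from rfl, h1]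
      exact Finset.sum_congr rfl fun φ _ =>
        (char_natCast_charDegree (isCharacter_of_irr φ.2)).symm
    exact_mod_cast h2
  have he : 0 < charDegree c.ξ := irr_charDegree_pos c.hξ
  have hφ₀1 : charDegree (φ₀ : ↥(Subgroup.centralizer ((c.P : Subgroup L) : Set L)) → ℂ) = 1 := by
    rw [hsumdeg, hrel] at hdegeq
    have h1 : charDegree c.ξ * 1 = charDegree c.ξ *
        charDegree (φ₀ : ↥(Subgroup.centralizer ((c.P : Subgroup L) : Set L)) → ℂ) := by
      rw [mul_one]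
      exact hdegeq
    exact (Nat.eq_of_mul_eq_mul_left he h1).symm
  have hφ₀one : (φ₀ : ↥(Subgroup.centralizer ((c.P : Subgroup L) : Set L)) → ℂ) 1 = 1 := by
    rw [← char_natCast_charDegree (isCharacter_of_irr φ₀.2), hφ₀1]
    simp
  have hdeg1 : ∀ φ ∈ S0, (φ : ↥(Subgroup.centralizer ((c.P : Subgroup L) : Set L)) → ℂ) 1 = 1 := by
    intro φ hφ
    rw [← char_natCast_charDegree (isCharacter_of_irr φ.2), (hS φ hφ).2.1, hφ₀1]
    simp
  -- homomorphisms
  have hhom : ∀ φ : IrrCharacter ↥(Subgroup.centralizer ((c.P : Subgroup L) : Set L)),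
      ∃ f : ↥(Subgroup.centralizer ((c.P : Subgroup L) : Set L)) →* ℂˣ, φ ∈ S0 →
        ∀ g, (φ : ↥(Subgroup.centralizer ((c.P : Subgroup L) : Set L)) → ℂ) g =
          ((f g : ℂˣ) : ℂ) := by
    intro φ
    by_cases hφ : φ ∈ S0
    · obtain ⟨f, hf⟩ := LinChar.exists_hom_of_isCharacter
        (φ : ↥(Subgroup.centralizer ((c.P : Subgroup L) : Set L)) → ℂ)
        (isCharacter_of_irr φ.2) (hdeg1 φ hφ)
      exact ⟨f, fun _ => hf⟩
    · exact ⟨1, fun h => absurd h hφ⟩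
  choose F hF using hhom
  have hFinj : Set.InjOn F (S0 : Set (IrrCharacter
      ↥(Subgroup.centralizer ((c.P : Subgroup L) : Set L)))) := by
    intro φ hφ φ' hφ' h
    apply Subtype.ext
    funext g
    rw [hF φ (Finset.mem_coe.1 hφ) g, hF φ' (Finset.mem_coe.1 hφ') g, h]
  refine ⟨S0.image F, ψ₀, hψ₀, ?_, ?_, ?_⟩
  · rw [Finset.card_image_of_injOn hFinj, hScard, hrel]
  · intro k
    rw [Finset.sum_image hFinj, hsum k]
    exact Finset.sum_congr rfl fun φ hφ => hF φ hφ k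
  · intro μ hμ
    rw [Finset.mem_image] at hμ
    obtain ⟨φ, hφ, rfl⟩ := hμ
    obtain ⟨n, hn, hnφ⟩ := (hS φ hφ).2.2
    refine ⟨n, hn, fun u u' k hk hu' => ?_⟩
    apply Units.ext
    rw [← hF φ hφ k, hnφ u u' k hk hu', hφ₀one, one_mul]

end Cfsg.Agent.Lib.Helper81.BrRBORB
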