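import Cfsg.Agent.Lib.Helper76.BrRBStmt
import Cfsg.Agent.Lib.Helper74.BrauerMain
import Cfsg.Agent.Lib.Helper67.BrL24
import Cfsg.Agent.Lib.Helper52.FTPERFNN
import Cfsg.Agent.Lib.Helper49.BrR3
import Cfsg.Agent.Lib.Helper1.BrR1
import Cfsg.Agent.Lib.CT.Clifford

/-!
# S4504 piece R1: the restriction of `χ` to the normal closure of `P` is irreducible
-/

set_option autoImplicit false
set_option linter.style.haveILetI false
set_option linter.unusedSectionVars false

namespace Cfsg.Agent.Lib.Helper81.BrRBR1

open Cfsg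
open Cfsg.Agent.Lib.CT.Orth Cfsg.Agent.Lib.CT.Wedderburn Cfsg.Agent.Lib.CT.Clifford
open scoped ComplexConjugate

universe u

theorem main : Cfsg.Agent.Lib.Helper76.BrRB.R1.{u} := by
  intro G _ _ p _ P hPcard hPnn χ hχ hfaith hdeg
  classical
  have hp : p.Prime := Fact.out
  haveI : Fintype G := Fintype.ofFinite G
  have hLn : (Subgroup.normalClosure ((P : Subgroup G) : Set G)).Normal :=
    Subgroup.normalClosure_normal
  haveI : Fintype ↥(Subgroup.normalClosure ((P : Subgroup G) : Set G)) := Fintype.ofFinite _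
  have hle : (P : Subgroup G) ≤ Subgroup.normalClosure ((P : Subgroup G) : Set G) :=
    Subgroup.le_normalClosure
  have hχLchar : IsCharacter ↥(Subgroup.normalClosure ((P : Subgroup G) : Set G))
      (fun l : ↥(Subgroup.normalClosure ((P : Subgroup G) : Set G)) => χ (l : G)) :=
    Cfsg.Agent.Lib.CT.Ops.isCharacter_restrict _ hχ
  have hdegL : charDegree (fun l : ↥(Subgroup.normalClosure ((P : Subgroup G) : Set G)) =>
      χ (l : G)) = charDegree χ := rfl
  haveI := finite_irrCharacter ↥(Subgroup.normalClosure ((P : Subgroup G) : Set G))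
  letI : Fintype (IrrCharacter ↥(Subgroup.normalClosure ((P : Subgroup G) : Set G))) :=
    Fintype.ofFinite _
  -- multiplicities
  have hm : ∀ φ : IrrCharacter ↥(Subgroup.normalClosure ((P : Subgroup G) : Set G)),
      ∃ m : ℕ, classInner (fun l : ↥(Subgroup.normalClosure ((P : Subgroup G) : Set G)) =>
        χ (l : G)) (φ : ↥(Subgroup.normalClosure ((P : Subgroup G) : Set G)) → ℂ) = m :=
    fun φ => classInner_char_nat hχLchar (isCharacter_of_irr φ.2)
  choose m hm using hm
  have hexp := Cfsg.Agent.Lib.Helper67.BrL24.degree_expand _ hχLchar m hm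
  have hne : ∀ φ : IrrCharacter ↥(Subgroup.normalClosure ((P : Subgroup G) : Set G)),
      m φ ≠ 0 ↔ classInner (fun l : ↥(Subgroup.normalClosure ((P : Subgroup G) : Set G)) =>
        χ (l : G)) (φ : ↥(Subgroup.normalClosure ((P : Subgroup G) : Set G)) → ℂ) ≠ 0 := by
    intro φ
    rw [hm φ]
    exact (Nat.cast_ne_zero (R := ℂ)).symm
  by_cases hex : ∃ θ : IrrCharacter ↥(Subgroup.normalClosure ((P : Subgroup G) : Set G)),
      m θ ≠ 0 ∧ charDegree χ ≤
        charDegree (θ : ↥(Subgroup.normalClosure ((P : Subgroup G) : Set G)) → ℂ)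
  · obtain ⟨θ, hθ, hθd⟩ := hex
    have hθ' := (hne θ).1 hθ
    have h1 := (Cfsg.Agent.Lib.Helper67.BrL24.eq_sum_of_degree_le _ hχLchar {θ}
      (by
        intro φ hφ
        rw [Finset.mem_singleton] at hφ
        rw [hφ]
        exact hθ')
      (by
        rw [Finset.sum_singleton, hdegL]
        exact hθd)).1
    have hfun : (fun l : ↥(Subgroup.normalClosure ((P : Subgroup G) : Set G)) => χ (l : G)) =
        (θ : ↥(Subgroup.normalClosure ((P : Subgroup G) : Set G)) → ℂ) := by
      funext h
      rw [h1 h, Finset.sum_singleton]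
    rw [hfun]
    exact θ.2
  · exfalso
    push Not at hex
    have hsmall : ∀ ξ : IrrCharacter ↥(Subgroup.normalClosure ((P : Subgroup G) : Set G)),
        classInner (fun l : ↥(Subgroup.normalClosure ((P : Subgroup G) : Set G)) => χ (l : G))
          (ξ : ↥(Subgroup.normalClosure ((P : Subgroup G) : Set G)) → ℂ) ≠ 0 →
        2 * charDegree (ξ : ↥(Subgroup.normalClosure ((P : Subgroup G) : Set G)) → ℂ) + 1 < p := by
      intro ξ hξ
      have := hex ξ ((hne ξ).2 hξ)
      omega
    have hQcard : Nat.card (P.subtype hle : Sylow p ↥(Subgroup.normalClosure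
        ((P : Subgroup G) : Set G))) = p := by
      have e : Nat.card ↥((P : Subgroup G).subgroupOf (Subgroup.normalClosure
          ((P : Subgroup G) : Set G))) = Nat.card ↥(P : Subgroup G) :=
        Nat.card_congr (Subgroup.subgroupOfEquivOfLe hle).toEquiv
      exact e.trans hPcard
    have hgenQ := Cfsg.Agent.Lib.Helper1.BrR1.normalClosure_subtype_eq_top p P hle
    have hfaithL : ∀ l : ↥(Subgroup.normalClosure ((P : Subgroup G) : Set G)),
        (fun l : ↥(Subgroup.normalClosure ((P : Subgroup G) : Set G)) => χ (l : G)) l =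
          (fun l : ↥(Subgroup.normalClosure ((P : Subgroup G) : Set G)) => χ (l : G)) 1 →
        l = 1 :=
      fun l h => Subtype.ext (hfaith _ h)
    have hcent : ∀ u : ↥(Subgroup.normalClosure ((P : Subgroup G) : Set G)),
        (u : G) ∈ (P : Subgroup G) →
        ∀ l : ↥(Subgroup.normalClosure ((P : Subgroup G) : Set G)), u * l = l * u := by
      intro u hu
      apply Cfsg.Agent.Lib.Helper49.BrR3.comm_of_constituents _ hχLchar hfaithL u
      intro ξ hξ
      exact Cfsg.Agent.Lib.Helper74.BrauerMain.core p (P.subtype hle) hQcard hgenQ ξ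
        (hsmall ξ hξ) u (Subgroup.mem_subgroupOf.2 hu)
    apply Cfsg.Agent.Lib.Helper52.FTPERFNN.main G p P hPnn
    constructor
    intro n hn g
    have hn' : (n : G) ∈ (P : Subgroup G) := Subgroup.mem_subgroupOf.1 hn
    have h1 := hcent n hn' g
    have e : g * n * g⁻¹ = n := by
      rw [← h1]
      group
    rw [e]
    exact hn

end Cfsg.Agent.Lib.Helper81.BrRBR1
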