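import Cfsg.Agent.Lib.Helper80.S4705Stmt
import Cfsg.Agent.Lib.Helper74.BrauerMain
import Cfsg.Agent.Lib.Helper67.BrL24
import Cfsg.Agent.Lib.Helper52.FTPERFNN
import Cfsg.Agent.Lib.Helper49.BrR3
import Cfsg.Agent.Lib.Helper1.BrR1
import Cfsg.Agent.Lib.CT.Clifford

/-!
# S4705 piece PERFIRR: the restriction of `ζ` to the normal closure of `P` is irreducible
-/

set_option autoImplicit false
set_option linter.style.haveILetI false
set_option linter.unusedSectionVars false

namespace Cfsg.Agent.Lib.Helper81.FTPERFIRR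

open Cfsg
open Cfsg.Agent.Lib.Helper80.S4705Stmt
open Cfsg.Agent.Lib.CT.Orth Cfsg.Agent.Lib.CT.Wedderburn Cfsg.Agent.Lib.CT.Clifford
open scoped ComplexConjugate

universe u

theorem main : PerfIrr.{u} := by
  intro G _ _ p _ P ζ hHyp
  classical
  obtain ⟨hp5, hPcard, hPnn, hirr, hfaith, hdeg⟩ := hHyp
  have hp : p.Prime := Fact.out
  haveI : Fintype G := Fintype.ofFinite G
  have hLn : (Subgroup.normalClosure ((P : Subgroup G) : Set G)).Normal :=
    Subgroup.normalClosure_normal
  haveI : Fintype ↥(Subgroup.normalClosure ((P : Subgroup G) : Set G)) := Fintype.ofFinite _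
  have hle : (P : Subgroup G) ≤ Subgroup.normalClosure ((P : Subgroup G) : Set G) :=
    Subgroup.le_normalClosure
  have hζchar : IsCharacter G ζ := isCharacter_of_irr hirr
  have hχLchar : IsCharacter ↥(Subgroup.normalClosure ((P : Subgroup G) : Set G))
      (fun l : ↥(Subgroup.normalClosure ((P : Subgroup G) : Set G)) => ζ (l : G)) :=
    Cfsg.Agent.Lib.CT.Ops.isCharacter_restrict _ hζchar
  have hdegL : charDegree (fun l : ↥(Subgroup.normalClosure ((P : Subgroup G) : Set G)) =>
      ζ (l : G)) = p - 2 := hdeg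
  haveI := finite_irrCharacter ↥(Subgroup.normalClosure ((P : Subgroup G) : Set G))
  letI : Fintype (IrrCharacter ↥(Subgroup.normalClosure ((P : Subgroup G) : Set G))) :=
    Fintype.ofFinite _
  -- multiplicities
  have hm : ∀ φ : IrrCharacter ↥(Subgroup.normalClosure ((P : Subgroup G) : Set G)),
      ∃ m : ℕ, classInner (fun l : ↥(Subgroup.normalClosure ((P : Subgroup G) : Set G)) =>
        ζ (l : G)) (φ : ↥(Subgroup.normalClosure ((P : Subgroup G) : Set G)) → ℂ) = m :=
    fun φ => classInner_char_nat hχLchar (isCharacter_of_irr φ.2)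
  choose m hm using hm
  have hexp := Cfsg.Agent.Lib.Helper67.BrL24.degree_expand _ hχLchar m hm
  have hne : ∀ φ : IrrCharacter ↥(Subgroup.normalClosure ((P : Subgroup G) : Set G)),
      m φ ≠ 0 ↔ classInner (fun l : ↥(Subgroup.normalClosure ((P : Subgroup G) : Set G)) =>
        ζ (l : G)) (φ : ↥(Subgroup.normalClosure ((P : Subgroup G) : Set G)) → ℂ) ≠ 0 := by
    intro φ
    rw [hm φ]
    exact (Nat.cast_ne_zero (R := ℂ)).symm
  -- existence of a constituent
  obtain ⟨θ, hθ⟩ : ∃ θ : IrrCharacter ↥(Subgroup.normalClosure ((P : Subgroup G) : Set G)),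
      m θ ≠ 0 := by
    by_contra hcon
    push Not at hcon
    rw [hdegL] at hexp
    have h0 : ∑ φ : IrrCharacter ↥(Subgroup.normalClosure ((P : Subgroup G) : Set G)),
        m φ * charDegree (φ : ↥(Subgroup.normalClosure ((P : Subgroup G) : Set G)) → ℂ) = 0 :=
      Finset.sum_eq_zero (fun φ _ => by rw [hcon φ, zero_mul])
    omega
  have hθ' := (hne θ).1 hθ
  -- all constituents have the same degree
  have hsame : ∀ φ : IrrCharacter ↥(Subgroup.normalClosure ((P : Subgroup G) : Set G)),
      m φ ≠ 0 → charDegree (φ : ↥(Subgroup.normalClosure ((P : Subgroup G) : Set G)) → ℂ) =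
        charDegree (θ : ↥(Subgroup.normalClosure ((P : Subgroup G) : Set G)) → ℂ) := by
    intro φ hφ
    have hφ' := (hne φ).1 hφ
    obtain ⟨g, hg⟩ := exists_conj_of_constituent _ hLn hirr θ.2 φ.2 hθ' hφ'
    unfold charDegree
    rw [hg, conjFun_apply]
    have e : (⟨g * ((1 : ↥(Subgroup.normalClosure ((P : Subgroup G) : Set G))) : G) * g⁻¹,
        hLn.conj_mem _ (1 : ↥(Subgroup.normalClosure ((P : Subgroup G) : Set G))).2 g⟩ :
        ↥(Subgroup.normalClosure ((P : Subgroup G) : Set G))) = 1 := by
      apply Subtype.ext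
      simp
    rw [e]
  set d := charDegree (θ : ↥(Subgroup.normalClosure ((P : Subgroup G) : Set G)) → ℂ) with hd
  have hexp2 : p - 2 = (∑ φ : IrrCharacter ↥(Subgroup.normalClosure ((P : Subgroup G) : Set G)),
      m φ) * d := by
    rw [← hdegL, hexp, Finset.sum_mul]
    refine Finset.sum_congr rfl fun φ _ => ?_
    by_cases hφ : m φ = 0
    · rw [hφ, zero_mul, zero_mul]
    · rw [hsame φ hφ]
  by_cases hd2 : d = p - 2
  · have h1 := (Cfsg.Agent.Lib.Helper67.BrL24.eq_sum_of_degree_le _ hχLchar {θ}
      (by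
        intro φ hφ
        rw [Finset.mem_singleton] at hφ
        rw [hφ]
        exact hθ')
      (by
        rw [Finset.sum_singleton, hdegL, ← hd, hd2])).1
    have hfun : (fun l : ↥(Subgroup.normalClosure ((P : Subgroup G) : Set G)) => ζ (l : G)) =
        (θ : ↥(Subgroup.normalClosure ((P : Subgroup G) : Set G)) → ℂ) := by
      funext h
      rw [h1 h, Finset.sum_singleton]
    rw [hfun]
    exact θ.2
  · exfalso
    have hsum2 : 2 ≤ ∑ φ : IrrCharacter ↥(Subgroup.normalClosure ((P : Subgroup G) : Set G)),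
        m φ := by
      by_contra hlt
      push Not at hlt
      have h01 : (∑ φ : IrrCharacter ↥(Subgroup.normalClosure ((P : Subgroup G) : Set G)),
          m φ) = 0 ∨ (∑ φ : IrrCharacter ↥(Subgroup.normalClosure ((P : Subgroup G) : Set G)),
          m φ) = 1 := by omega
      rcases h01 with h | h
      · rw [h, zero_mul] at hexp2
        omega
      · rw [h, one_mul] at hexp2
        exact hd2 hexp2.symm
    have h2d : 2 * d ≤ p - 2 := by
      rw [hexp2]
      exact Nat.mul_le_mul_right d hsum2
    have hsmall : ∀ ξ : IrrCharacter ↥(Subgroup.normalClosure ((P : Subgroup G) : Set G)),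
        classInner (fun l : ↥(Subgroup.normalClosure ((P : Subgroup G) : Set G)) => ζ (l : G))
          (ξ : ↥(Subgroup.normalClosure ((P : Subgroup G) : Set G)) → ℂ) ≠ 0 →
        2 * charDegree (ξ : ↥(Subgroup.normalClosure ((P : Subgroup G) : Set G)) → ℂ) + 1 < p := by
      intro ξ hξ
      rw [hsame ξ ((hne ξ).2 hξ)]
      omega
    have hQcard : Nat.card (P.subtype hle : Sylow p ↥(Subgroup.normalClosure
        ((P : Subgroup G) : Set G))) = p := by
      have e : Nat.card ↥((P : Subgroup G).subgroupOf (Subgroup.normalClosure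
          ((P : Subgroup G) : Set G))) = Nat.card ↥(P : Subgroup G) :=
        Nat.card_congr (Subgroup.subgroupOfEquivOfLe hle).toEquiv
      exact e.trans hPcard
    have hgenQ := Cfsg.Agent.Lib.Helper1.BrR1.normalClosure_subtype_eq_top p P hle
    have hfaithL : ∀ l : ↥(Subgroup.normalClosure ((P : Subgroup G) : Set G)),
        (fun l : ↥(Subgroup.normalClosure ((P : Subgroup G) : Set G)) => ζ (l : G)) l =
          (fun l : ↥(Subgroup.normalClosure ((P : Subgroup G) : Set G)) => ζ (l : G)) 1 →
        l = 1 :=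
      fun l h => Subtype.ext (hfaith _ h)
    have hcent : ∀ u : ↥(Subgroup.normalClosure ((P : Subgroup G) : Set G)),
        (u : G) ∈ (P : Subgroup G) →
        ∀ l : ↥(Subgroup.normalClosure ((P : Subgroup G) : Set G)), u * l = l * u := by
      intro u hu
      apply Cfsg.Agent.Lib.Helper49.BrR3.comm_of_constituents _ hχLchar hfaithL u
      intro ξ hξ
      exact Cfsg.Agent.Lib.Helper74.BrauerMain.core p (P.subtype hle) hQcard hgenQ ξ
        (hsmall ξ hξ) u (Subgroup.mem_subgroupOf.2 hu)
    apply Cfsg.Agent.Lib.Helper52.FTPERFNN.main G p P hPnn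
    constructor
    intro n hn g
    have hn' : (n : G) ∈ (P : Subgroup G) := Subgroup.mem_subgroupOf.1 hn
    have h1 := hcent n hn' g
    have e : g * n * g⁻¹ = n := by
      rw [← h1]
      group
    rw [e]
    exact hn

end Cfsg.Agent.Lib.Helper81.FTPERFIRR
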