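import Mathlib
import Cfsg.Agent.Lib.Helper75.OTStmt
import Cfsg.Agent.Lib.Helper77.BPIdem
import Cfsg.Agent.Lib.Helper77.BPConj
import Cfsg.Agent.Lib.Helper77.OsimaVanish
import Cfsg.Agent.Lib.Helper16.ZR

/-!
# Piece BRX of S4889: an element of `N_G(D)` outside `C_G(D)` moves some element of the local
centre
-/

set_option autoImplicit false

namespace Cfsg.Agent.Lib.Helper81.OTBRX

open Cfsg Module Cfsg.Agent.Lib.Helper77.LocalRing Cfsg.Agent.Lib.Helper77.CentralChar
  Cfsg.Agent.Lib.Helper77.ClassSum Cfsg.Agent.Lib.Helper77.BlockIdem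
  Cfsg.Agent.Lib.Helper77.BPBasic Cfsg.Agent.Lib.Helper77.BPMax
  Cfsg.Agent.Lib.Helper75.TwoChar Cfsg.Agent.Lib.Helper75.BlockAlg
  Cfsg.Agent.Lib.Helper75.Decomp Cfsg.Agent.Lib.Helper75.OTStmt
open scoped ComplexConjugate

universe u

/-- A block idempotent has a coefficient outside the local ideal. -/
theorem exists_coeff_not_mem {H : Type u} [Group H] [Finite H] {M : Ideal AlgInt}
    (hMp : M.IsPrime) (c : Set (IrrCharacter H)) (hc : IsPBlock M c) :
    ∃ y : H, ¬ MemLocalIdeal M (blockCoeff c y) := by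
  by_contra hall
  push Not at hall
  obtain ⟨ξ, hξ⟩ := Cfsg.Agent.Lib.Helper16.ZR.isPBlock_nonempty hMp hc
  have h := Cfsg.Agent.Lib.Helper16.ZR.omega_memLocalIdeal hMp ξ.2 (blockIdem c)
    (blockIdem_mem_center c) (fun g => by rw [coeff_blockIdem]; exact hall g)
  rw [omega_blockIdem, if_pos hξ] at h
  exact Cfsg.Agent.Lib.Helper77.LocalRing.not_memLocalIdeal_one hMp h

/-- The order of a product of a nontrivial `p`-element with a commuting `p`-regular element is
divisible by `p`. -/
theorem dvd_orderOf_mul {H : Type u} [Group H] {p : ℕ} (hp : p.Prime) (z y : H)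
    (hzy : Commute z y) (k : ℕ) (hz : z ^ (p ^ k) = 1) (hz1 : z ≠ 1) (hy : ¬ p ∣ orderOf y) :
    p ∣ orderOf (z * y) := by
  obtain ⟨j, -, hj⟩ := (Nat.dvd_prime_pow hp).mp (orderOf_dvd_of_pow_eq_one hz)
  have hj0 : j ≠ 0 := by
    rintro rfl
    rw [pow_zero, orderOf_eq_one_iff] at hj
    exact hz1 hj
  have hcop : (orderOf z).Coprime (orderOf y) := by
    rw [hj]
    exact Nat.Coprime.pow_left j ((Nat.Prime.coprime_iff_not_dvd hp).mpr hy)
  rw [hzy.orderOf_mul_eq_mul_orderOf_of_coprime hcop, hj]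
  exact Dvd.dvd.mul_right (dvd_pow_self p hj0) _

theorem main : Cfsg.Agent.Lib.Helper75.OTStmt.BRX.{u} := by
  intro G _ _ p _ M hM hMp F _ q hq D hDp hDab c hc ε' hε' x hxN hxC
  classical
  have hp : p.Prime := Fact.out
  obtain ⟨hsupp, hfix, -⟩ :=
    Cfsg.Agent.Lib.Helper77.BPConj.ext_blockIdem_mem hMp (Subgroup.centralizer (D : Set G)) c hc
  have hidem := Cfsg.Agent.Lib.Helper77.BPIdem.ext_blockIdem_mul_self hM
    (Subgroup.centralizer (D : Set G)) c hc
  obtain ⟨eb, heb⟩ : ∃ eb : MonoidAlgebra F G, eb = MonoidAlgebra.mapRingHom G q ε' := ⟨_, rfl⟩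
  rw [← heb]
  have hcoef : ∀ g, eb.coeff g = q (ε'.coeff g) := fun g => by
    rw [heb, MonoidAlgebra.coeff_mapRingHom]
  have hε'c : ∀ g, ((ε'.coeff g : localSubring M hMp) : ℂ)
      = (ext (Subgroup.centralizer (D : Set G)) (blockIdem c)).coeff g := fun g => by
    rw [← coeff_incl, hε']
  have h1 : eb * eb = eb := by
    rw [heb, ← map_mul]
    congr 1
    apply incl_injective hMp
    rw [map_mul, hε', hidem]
  have h2 : ∀ g, g ∉ Subgroup.centralizer (D : Set G) → eb.coeff g = 0 := by
    intro g hg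
    rw [hcoef]
    have h0 : ε'.coeff g = 0 := by
      apply Subtype.ext
      rw [hε'c]
      exact hsupp g hg
    rw [h0, map_zero]
  have h3 : ∀ y ∈ Subgroup.centralizer (D : Set G), ∀ g,
      eb.coeff (y * g * y⁻¹) = eb.coeff g := by
    intro y hy g
    rw [hcoef, hcoef]
    congr 1
    apply Subtype.ext
    rw [hε'c, hε'c]
    exact hfix y hy g
  have h4 : ∀ y ∈ Subgroup.centralizer (D : Set G),
      MonoidAlgebra.single y (1 : F) * eb = eb * MonoidAlgebra.single y (1 : F) := by
    intro y hy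
    apply MonoidAlgebra.ext
    ext g
    rw [MonoidAlgebra.coeff_single_mul_apply, MonoidAlgebra.coeff_mul_single_apply, one_mul,
      mul_one, ← h3 y hy (y⁻¹ * g)]
    congr 1
    group
  have hDC : ∀ u ∈ D, u ∈ Subgroup.centralizer (D : Set G) := by
    intro u hu
    rw [Subgroup.mem_centralizer_iff]
    intro h hh
    exact hDab h hh u hu
  by_cases hconj : MonoidAlgebra.single x (1 : F) * eb * MonoidAlgebra.single x⁻¹ (1 : F) = eb
  swap
  · exact ⟨eb, ⟨h2, h4, h1⟩, hconj⟩
  -- an element of `D` moved by `x`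
  obtain ⟨u, huD, hux⟩ : ∃ u ∈ D, u * x ≠ x * u := by
    by_contra hall
    push Not at hall
    exact hxC (Subgroup.mem_centralizer_iff.mpr hall)
  have huC := hDC u huD
  refine ⟨MonoidAlgebra.single u (1 : F) * eb, ⟨?_, ?_, ?_⟩, ?_⟩
  · intro g hg
    rw [MonoidAlgebra.coeff_single_mul_apply, one_mul]
    apply h2
    intro hmem
    apply hg
    have := Subgroup.mul_mem _ huC hmem
    rwa [mul_inv_cancel_left] at this
  · intro y hy
    have hyu : y * u = u * y := ((Subgroup.mem_centralizer_iff.mp hy) u huD).symm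
    rw [← mul_assoc, MonoidAlgebra.single_mul_single, hyu, mul_one, mul_assoc, ← h4 y hy,
      ← mul_assoc, MonoidAlgebra.single_mul_single, mul_one]
  · rw [← mul_assoc, ← h4 u huC, mul_assoc, h1]
  · intro heq
    -- `u' := x u x⁻¹`
    have hu'D : x * u * x⁻¹ ∈ D := by
      have := (Subgroup.mem_normalizer_iff.mp hxN u).mp huD
      exact this
    have hne : x * u * x⁻¹ ≠ u := by
      intro h
      apply hux
      calc u * x = (x * u * x⁻¹) * x := by rw [h]
        _ = x * u := by group
    have hLHS : MonoidAlgebra.single x (1 : F) * (MonoidAlgebra.single u (1 : F) * eb)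
        * MonoidAlgebra.single x⁻¹ (1 : F)
        = MonoidAlgebra.single (x * u * x⁻¹) (1 : F) * eb := by
      have e1 : MonoidAlgebra.single x (1 : F) * MonoidAlgebra.single u (1 : F)
          = MonoidAlgebra.single (x * u * x⁻¹) (1 : F) * MonoidAlgebra.single x (1 : F) := by
        rw [MonoidAlgebra.single_mul_single, MonoidAlgebra.single_mul_single]
        congr 1
        group
      rw [← mul_assoc, e1, mul_assoc, mul_assoc, ← mul_assoc (MonoidAlgebra.single x (1 : F)),
        hconj]
    rw [hLHS] at heq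
    -- coefficientwise
    have hz : ∀ y : G, eb.coeff ((x * u * x⁻¹)⁻¹ * u * y) = eb.coeff y := by
      intro y
      have h := congrArg (fun w : MonoidAlgebra F G => w.coeff (u * y)) heq
      simp only [MonoidAlgebra.coeff_single_mul_apply, one_mul] at h
      rw [inv_mul_cancel_left] at h
      rw [← h, mul_assoc]
    obtain ⟨z, hzdef⟩ : ∃ z : G, z = (x * u * x⁻¹)⁻¹ * u := ⟨_, rfl⟩
    rw [← hzdef] at hz
    have hzD : z ∈ D := by
      rw [hzdef]
      exact D.mul_mem (D.inv_mem hu'D) huD
    have hz1 : z ≠ 1 := by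
      intro h
      apply hne
      rw [hzdef] at h
      have := inv_mul_eq_one.mp h
      exact this
    have hzC := hDC z hzD
    obtain ⟨y0, hy0⟩ := exists_coeff_not_mem hMp c hc
    have hy0reg : ¬ p ∣ orderOf y0 := by
      intro hdvd
      apply hy0
      rw [Cfsg.Agent.Lib.Helper77.OsimaVanish.blockCoeff_eq_zero_of_singular p M hM c hc y0 hdvd]
      exact memLocalIdeal_zero hMp
    obtain ⟨k, hk⟩ := hDp ⟨z, hzD⟩
    have hk' : (⟨z, hzC⟩ : Subgroup.centralizer (D : Set G)) ^ (p ^ k) = 1 := by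
      apply Subtype.ext
      have := congrArg (fun d : D => (d : G)) hk
      simpa using this
    have hcomm : Commute (⟨z, hzC⟩ : Subgroup.centralizer (D : Set G)) y0 := by
      apply Subtype.ext
      exact (Subgroup.mem_centralizer_iff.mp y0.2) z hzD
    have hsing := dvd_orderOf_mul hp (⟨z, hzC⟩ : Subgroup.centralizer (D : Set G)) y0 hcomm k hk'
      (fun h => hz1 (congrArg Subtype.val h)) hy0reg
    have hzero := Cfsg.Agent.Lib.Helper77.OsimaVanish.blockCoeff_eq_zero_of_singular p M hM c hc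
      _ hsing
    -- the two coefficients
    have hA : eb.coeff (z * (y0 : G)) = 0 := by
      rw [hcoef]
      have h0 : ε'.coeff (z * (y0 : G)) = 0 := by
        apply Subtype.ext
        rw [hε'c]
        have := coeff_ext_of_mem (Subgroup.centralizer (D : Set G)) (blockIdem c)
          ((⟨z, hzC⟩ : Subgroup.centralizer (D : Set G)) * y0)
        rw [coeff_blockIdem, hzero] at this
        exact this
      rw [h0, map_zero]
    have hB : eb.coeff (y0 : G) ≠ 0 := by
      rw [hcoef]
      intro h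
      apply hy0
      have := (hq _).mp h
      rw [hε'c, coeff_ext_of_mem, coeff_blockIdem] at this
      exact this
    exact hB ((hz y0).symm.trans hA)

end Cfsg.Agent.Lib.Helper81.OTBRX
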