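import Mathlib

set_option autoImplicit false
set_option linter.style.haveILetI false

namespace Cfsg.Agent.Lib.Helper81.SemiInv

variable {G : Type*} [Group G]

/-- A subgroup normalized by two subgroups generating the whole group is normal. -/
theorem normal_of_sup_top {A B C : Subgroup G} (h : A ⊔ B = ⊤)
    (hA : ∀ a ∈ A, ∀ c ∈ C, a * c * a⁻¹ ∈ C) (hB : ∀ b ∈ B, ∀ c ∈ C, b * c * b⁻¹ ∈ C) :
    C.Normal := by
  have hK : ∀ X : Subgroup G, (∀ x ∈ X, ∀ c ∈ C, x * c * x⁻¹ ∈ C) → X ≤ Subgroup.normalizer (C : Set G) := by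
    intro X hX x hx
    rw [Subgroup.mem_normalizer_iff]
    intro c
    constructor
    · exact hX x hx c
    · intro hc
      have := hX x⁻¹ (X.inv_mem hx) _ hc
      simpa [mul_assoc] using this
  have h1 : Subgroup.normalizer (C : Set G) = ⊤ := top_le_iff.mp (h ▸ sup_le (hK A hA) (hK B hB))
  exact Subgroup.normalizer_eq_top_iff.mp h1

/-- A nontrivial finite 2-group has a central involution. -/
theorem exists_central_involution {P : Type*} [Group P] [Finite P] (hP : IsPGroup 2 P)
    [Nontrivial P] : ∃ z : P, (∀ s : P, s * z = z * s) ∧ z ≠ 1 ∧ z * z = 1 := by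
  haveI : Fact (Nat.Prime 2) := ⟨Nat.prime_two⟩
  haveI := hP.center_nontrivial
  have hPc : IsPGroup 2 (Subgroup.center P) := hP.to_subgroup _
  obtain ⟨k, hk⟩ := IsPGroup.iff_card.mp hPc
  have h2 : 2 ∣ Nat.card (Subgroup.center P) := by
    rw [hk]
    have hk0 : k ≠ 0 := by
      intro h0
      rw [h0, pow_zero] at hk
      have := Finite.one_lt_card (α := Subgroup.center P)
      omega
    exact dvd_pow_self 2 hk0
  obtain ⟨c, hc⟩ := exists_prime_orderOf_dvd_card' 2 h2
  refine ⟨c.1, ?_, ?_, ?_⟩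
  · intro s
    exact Subgroup.mem_center_iff.mp c.2 s
  · intro h
    have h3 : c = 1 := Subtype.ext h
    rw [h3, orderOf_one] at hc
    norm_num at hc
  · have h3 := pow_orderOf_eq_one c
    rw [hc, pow_two] at h3
    exact congrArg Subtype.val h3

/-- In a semidirect product `N ⋊ P` with `N` abelian and the unique minimal normal subgroup, a
central involution of `P` inverts `N`. -/
theorem inverts (N P : Subgroup G) [N.Normal] (hNab : ∀ a ∈ N, ∀ b ∈ N, a * b = b * a)
    (hsup : N ⊔ P = ⊤) (hdisj : N ⊓ P = ⊥) (hN1 : N ≠ ⊥)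
    (hmin : ∀ M : Subgroup G, M.Normal → M ≠ ⊥ → N ≤ M)
    (z : G) (hzP : z ∈ P) (hzc : ∀ s ∈ P, s * z = z * s) (hz1 : z ≠ 1) (hz2 : z * z = 1) :
    ∀ n ∈ N, z * n * z⁻¹ = n⁻¹ := by
  have hzinv : z⁻¹ = z := inv_eq_of_mul_eq_one_left hz2
  have hCmem : ∀ c, c ∈ N ⊓ Subgroup.centralizer {z} ↔ c ∈ N ∧ z * c = c * z := by
    intro c
    rw [Subgroup.mem_inf, Subgroup.mem_centralizer_iff]
    simp
  have hCn : (N ⊓ Subgroup.centralizer {z}).Normal := by
    apply normal_of_sup_top hsup
    · intro a ha c hc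
      rw [hCmem] at hc
      have h1 : a * c * a⁻¹ = c := by
        rw [hNab a ha c hc.1, mul_assoc, mul_inv_cancel, mul_one]
      rw [h1, hCmem]
      exact hc
    · intro b hb c hc
      rw [hCmem] at hc ⊢
      refine ⟨(inferInstance : N.Normal).conj_mem c hc.1 b, ?_⟩
      have h1 := hzc b hb
      have h2 := hzc b⁻¹ (P.inv_mem hb)
      calc z * (b * c * b⁻¹) = (z * b) * c * b⁻¹ := by group
        _ = b * (z * c) * b⁻¹ := by rw [← h1]; group
        _ = b * (c * z) * b⁻¹ := by rw [hc.2]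
        _ = b * c * (z * b⁻¹) := by group
        _ = b * c * (b⁻¹ * z) := by rw [h2]
        _ = b * c * b⁻¹ * z := by group
  by_cases hCbot : N ⊓ Subgroup.centralizer {z} = ⊥
  · intro n hn
    have ha' : z * n * z⁻¹ ∈ N := (inferInstance : N.Normal).conj_mem n hn z
    have hw : n * (z * n * z⁻¹) ∈ N ⊓ Subgroup.centralizer {z} := by
      rw [hCmem]
      refine ⟨N.mul_mem hn ha', ?_⟩
      have e2 : z * (z * n * z⁻¹) = n * z := by
        rw [← mul_assoc, ← mul_assoc, hz2, one_mul, hzinv]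
      calc z * (n * (z * n * z⁻¹)) = (z * n * z⁻¹) * (z * (z * n * z⁻¹)) := by group
        _ = (z * n * z⁻¹) * (n * z) := by rw [e2]
        _ = ((z * n * z⁻¹) * n) * z := by group
        _ = (n * (z * n * z⁻¹)) * z := by rw [hNab _ ha' n hn]
    rw [hCbot, Subgroup.mem_bot] at hw
    exact eq_inv_of_mul_eq_one_right hw
  · exfalso
    have hNC : N ≤ N ⊓ Subgroup.centralizer {z} := hmin _ hCn hCbot
    have hzN : ∀ n ∈ N, z * n = n * z := fun n hn => ((hCmem n).mp (hNC hn)).2
    have hZmem : ∀ c, c ∈ P ⊓ Subgroup.centralizer (N : Set G) ↔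
        c ∈ P ∧ ∀ n ∈ N, n * c = c * n := by
      intro c
      rw [Subgroup.mem_inf, Subgroup.mem_centralizer_iff]
      rfl
    have hZn : (P ⊓ Subgroup.centralizer (N : Set G)).Normal := by
      apply normal_of_sup_top hsup
      · intro a ha c hc
        rw [hZmem] at hc
        have h1 : a * c * a⁻¹ = c := by
          rw [hc.2 a ha, mul_assoc, mul_inv_cancel, mul_one]
        rw [h1, hZmem]
        exact hc
      · intro b hb c hc
        rw [hZmem] at hc ⊢
        refine ⟨P.mul_mem (P.mul_mem hb hc.1) (P.inv_mem hb), ?_⟩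
        intro n hn
        have hn' : b⁻¹ * n * b ∈ N := by
          have := (inferInstance : N.Normal).conj_mem n hn b⁻¹
          simpa using this
        have h1 := hc.2 _ hn'
        calc n * (b * c * b⁻¹) = b * ((b⁻¹ * n * b) * c) * b⁻¹ := by group
          _ = b * (c * (b⁻¹ * n * b)) * b⁻¹ := by rw [h1]
          _ = b * c * b⁻¹ * n := by group
    have hZne : P ⊓ Subgroup.centralizer (N : Set G) ≠ ⊥ := by
      intro h
      have h1 : z ∈ P ⊓ Subgroup.centralizer (N : Set G) :=
        (hZmem z).mpr ⟨hzP, fun n hn => (hzN n hn).symm⟩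
      rw [h, Subgroup.mem_bot] at h1
      exact hz1 h1
    have hNZ : N ≤ P ⊓ Subgroup.centralizer (N : Set G) := hmin _ hZn hZne
    apply hN1
    rw [eq_bot_iff, ← hdisj]
    exact le_inf le_rfl (hNZ.trans inf_le_left)

end Cfsg.Agent.Lib.Helper81.SemiInv
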